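import Cfsg.Agent.Lib.NF.Defs
import Cfsg.Agent.Lib.H9HHGroup

/-! The order formula `|G| = |C_G(H)| ^ |H|`. -/

set_option autoImplicit false

namespace CfsgLib.NF

open Subgroup Cfsg CfsgLib.FT CfsgLib.FT.BGN CfsgLib.Cop CfsgLib.H8Fpf CfsgLib.H9 CfsgLib.CommCalc
open scoped commutatorElement

universe u v

theorem fixSpace_le_range {k : Type*} [Field k] {W : Type*} [AddCommGroup W] [Module k W]
    {Y : Type*} [Group Y] [Finite Y] {ρ : Y →* Module.End k W} {K R : Subgroup Y} (h : Semi K R)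
    (hK : (Nat.card K : k) ≠ 0) (h0 : normOp ρ K = 0) :
    fixSpace ρ R ≤ LinearMap.range (normOp ρ R) := by
  intro v hv
  have := Fintype.ofFinite K
  have := Fintype.ofFinite R
  obtain ⟨T, hT⟩ := h.exists_transversal
  have e := hT (fun y => v - ρ y v) (by simp)
  rw [Finset.sum_sub_distrib, ← LinearMap.sum_apply, ← normOp_eq, h0, LinearMap.zero_apply,
    sub_zero, Finset.sum_const, Finset.card_univ, ← Nat.card_eq_fintype_card] at e
  refine (Submodule.smul_mem_iff _ hK).1 ⟨∑ t ∈ T, (v - ρ t v), ?_⟩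
  rw [Nat.cast_smul_eq_nsmul, ← e, normOp_eq, LinearMap.sum_apply]
  refine Finset.sum_congr rfl fun r _ => ?_
  rw [map_sum]
  refine Finset.sum_congr rfl fun t _ => ?_
  rw [map_sub, hv r r.2, rho_mul_apply, rho_mul_apply, hv _ (inv_mem r.2)]

variable {X : Type u} [Group X] [Finite X] {G F H : Subgroup X}

theorem card_eq' (h : FCfg G F H) (M : Subgroup X) : M ≤ G → Group.IsSolvable M → F ≤ 𝐍(M) →
    H ≤ 𝐍(M) → Nat.card M = Nat.card ↥(M ⊓ 𝐂(H)) ^ Nat.card H := by
  induction M using WellFoundedLT.induction with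
  | ind M ih =>
  intro hMG hs hF hH
  by_cases h0 : M = ⊥
  · simp [h0]
  obtain ⟨N, ℓ, hℓ, -, hlt, hN, hc, hp, hmin⟩ := exists_chief_sec hs h0 (sup_le hF hH)
  have := Fact.mk hℓ
  have hs' := isSolvable_of_le hs hlt.le
  have hM := sup_le hF hH
  have h3 := ih N hlt (hlt.le.trans hMG) hs' (le_sup_left.trans hN) (le_sup_right.trans hN)
  obtain ⟨W, _, _, _, ρ, ι, S, h1, h2⟩ := h.exists_sec hMG hlt.le hM hN le_sup_left hc hp
  have hK : (Nat.card ((piCoreOf {ℓ}ᶜ F).subgroupOf (F ⊔ H)) : AlgebraicClosure (ZMod ℓ)) ≠ 0 :=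
    natCast_ne_zero_of_coprime _ ℓ h2
  have k1 := H1.piCoreOf_le (π := {ℓ}ᶜ) F
  have k2 : F ⊔ H ≤ 𝐍(piCoreOf {ℓ}ᶜ F) :=
    (sup_le le_normalizer h.hF).trans (H1.normalizer_le_normalizer_piCoreOf F)
  have hne : ¬ piCoreOf {ℓ}ᶜ F ≤ relCent N M := fun e => hlt.not_ge fun m hm =>
    h.fpf_hall hMG hlt.le hF (le_sup_left.trans hN) (le_normalizer_of_commutator_le hc hlt.le) hp hm
      fun f hf => (e hf).2 m hm
  obtain ⟨Z, z1, z2, -, z4, z5⟩ := exists_central_sec (isNilpotent_of_le h.nil k1) k2 hne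
  have z6 : Z ≤ F ⊔ H := (z1.trans k1).trans le_sup_left
  have hZn := normal_subgroupOf_of_le_normalizer z2
  have hZ0 : normOp ρ (Z.subgroupOf (F ⊔ H)) = 0 := S.normOp_eq_zero _ fun m hm e => by
    rcases hmin (M ⊓ relCent N Z) (le_inf hlt.le fun n hn => ⟨le_normalizer hn, fun t ht =>
      commutator_le_left_of_le_normalizer (z6.trans hN) (commutator_mem_commutator hn ht)⟩)
      inf_le_left (H1.le_normalizer_inf hM (H9.le_normalizer_relCent hN z2)) with e' | e'
    · refine e'.le ⟨hm, le_normalizer_of_commutator_le hc hlt.le hm, fun t ht => ?_⟩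
      rw [← commutatorElement_inv]
      exact inv_mem (e ⟨t, z6 ht⟩ ht)
    · refine absurd (fun z hz => ⟨hN (z6 hz), fun t ht => ?_⟩) z4
      rw [← commutatorElement_inv]
      exact inv_mem ((e'.ge ht).2.2 z hz)
  have hZk : (Nat.card (Z.subgroupOf (F ⊔ H)) : AlgebraicClosure (ZMod ℓ)) ≠ 0 :=
    natCast_ne_zero_of_coprime _ ℓ (h2.coprime_dvd_left (card_dvd_of_le (comap_mono z1)))
  have sm := h.semi {ℓ}ᶜ (F ⊔ H)
  have e1 := finrank_eq_card_mul_fixSpace (ρ := ρ) (R := H.subgroupOf (F ⊔ H)) hZk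
    le_normalizer_of_normal (fun x hx x1 z hz e => sm.frob x hx x1 z (z1 hz) e)
    (fun g hg => (S.rho_eq_one_iff g).2 (z5 (commutator_mono (map_comap_le ..)
      ((map_comap_le ..).trans z1) (map_commutator _ _ (F ⊔ H).subtype ▸ mem_map_of_mem _ hg))).2)
    hZ0
  have hMN := le_normalizer_of_commutator_le hc hlt.le
  have e2 : fixSpace ρ (H.subgroupOf (F ⊔ H)) =
      Submodule.span _ (ι '' (M ⊓ 𝐂(H) ⊔ N : Subgroup X)) := by
    apply le_antisymm
    · refine (fixSpace_le_range sm hK h1).trans (S.range_normOp_le _ fun m hm h3 =>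
        Submodule.subset_span ⟨m, ?_, rfl⟩)
      obtain ⟨n, hn, e⟩ := h.cover' (hlt.le.trans hMG) hs' (le_sup_left.trans hN)
        (le_sup_right.trans hN) (g := m) fun x hx => h3 ⟨x, mem_sup_right hx⟩ hx
      exact (mul_mem_cancel_left (mem_sup_right hn)).1
        (mem_sup_left ⟨mul_mem (hlt.le hn) hm, e⟩)
    · rw [Submodule.span_le]
      rintro _ ⟨m, hm, rfl⟩ b hb
      have hm' : m ∈ M := sup_le inf_le_left hlt.le hm
      rw [← sub_eq_zero, ← S.map_commutator b hm', S.eq_zero_iff _ (S.commutator_mem b hm')]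
      have : M ⊓ 𝐂(H) ⊔ N ≤ relCent N H := sup_le (fun c hc => ⟨hMN hc.1, fun t ht => by
        rw [commutatorElement_eq_one_iff_mul_comm.2 (hc.2 t ht).symm]; exact one_mem _⟩)
        fun n hn => ⟨le_normalizer hn, fun t ht => commutator_le_left_of_le_normalizer
          (le_sup_right.trans hN) (commutator_mem_commutator hn ht)⟩
      rw [← commutatorElement_inv]
      exact inv_mem ((this hm).2 _ hb)
  have e3 := S.rank (M ⊓ 𝐂(H) ⊔ N) le_sup_right (sup_le inf_le_left hlt.le)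
  rw [← e2, relIndex_sup_of_le_normalizer (inf_le_left.trans hMN)] at e3
  have e4 := card_inf_mul_relIndex N (M ⊓ 𝐂(H))
  rw [← inf_assoc, inf_eq_left.2 hlt.le] at e4
  rw [← card_mul_relIndex hlt.le, ← S.pow_finrank, e1, h3, ← e4, ← e3, mul_pow, ← pow_mul,
    Nat.card_congr (subgroupOfEquivOfLe (le_sup_right : H ≤ F ⊔ H)).toEquiv, mul_comm (Nat.card H)]

theorem card_eq (h : FCfg G F H) (hs : Group.IsSolvable G) :
    Nat.card G = Nat.card ↥(G ⊓ 𝐂(H)) ^ Nat.card H :=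
  card_eq' h G le_rfl hs h.norm h.hG

theorem s4119 (hS : Sol.{max u v}) {G : Type u} {A : Type v} [Group G] [Finite G] [Group A]
    [Finite A] [MulDistribMulAction A G]
    (Fk Hc : Subgroup A) (hHc : IsFrobeniusComplement Hc)
    (hker : frobeniusKernel Hc = (Fk : Set A))
    (hCF : ∀ g : G, (∀ f ∈ Fk, f • g = g) → g = 1) :
    Nat.card G = Nat.card {g : G | ∀ h ∈ Hc, h • g = g} ^ Nat.card Hc := by
  let φ := MulDistribMulAction.toMulAut A G
  have hfin := CopAut.finite_semidirect (φ := φ)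
  have c := fcfg_of_action φ Fk Hc hHc hker hCF
  have e := card_eq c (hS _ _ _ c.toCfg)
  rw [CopAut.card_L_top, CopAut.card_R] at e
  rw [e]
  congr 1
  refine (Nat.card_congr (Equiv.ofBijective (fun g => ⟨SemidirectProduct.inl g.1,
    mem_map_of_mem _ trivial, CopAut.inl_mem_centralizer_R_iff.2 g.2⟩) ⟨fun a b e =>
      Subtype.ext (SemidirectProduct.inl_injective (congrArg Subtype.val e)), ?_⟩)).symm
  rintro ⟨_, ⟨g, -, rfl⟩, hg⟩
  exact ⟨⟨g, CopAut.inl_mem_centralizer_R_iff.1 hg⟩, rfl⟩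

end CfsgLib.NF
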